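import Groth.Agent.Books.DualCM

/-!
# Dualizing complexes with a single nonzero cohomology module

If `ω` is a dualizing complex over `A` with `H^i(ω) = 0` for `i ≠ c`, then `M = H^c(ω)` has full
support and all its localizations are Cohen–Macaulay modules.
-/

set_option autoImplicit false
universe u
open CategoryTheory CategoryTheory.Limits
attribute [local instance] HasDerivedCategory.standard

namespace Groth.Agent.Dual.H341.CMAlg

open Groth.Agent.LoccohA Groth.Agent.LoccohA.DExt Groth.Agent.LoccohA.DExtDim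

variable {A : Type u} [CommRing A]

theorem nonempty_iso_single (ω : Dual.D A) (c : ℤ)
    (h : ∀ i : ℤ, i ≠ c → Subsingleton (Dual.HD A ω i)) :
    Nonempty (ω ≅ (DerivedCategory.singleFunctor (ModuleCat.{u} A) c).obj
      (ModuleCat.of A (Dual.HD A ω c))) := by
  have hz : ∀ i : ℤ, i ≠ c → IsZero ((DerivedCategory.homologyFunctor (ModuleCat.{u} A) i).obj ω) :=
    fun i hi => (ModuleCat.isZero_iff_subsingleton).2 (h i hi)
  have h1 : ω.IsGE c := by
    rw [DerivedCategory.isGE_iff]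
    exact fun i hi => hz i (by omega)
  have h2 : ω.IsLE c := by
    rw [DerivedCategory.isLE_iff]
    exact fun i hi => hz i (by omega)
  obtain ⟨Y, ⟨e⟩⟩ := DerivedCategory.exists_iso_singleFunctor_obj_of_isGE_of_isLE ω c
  let e1 : (DerivedCategory.homologyFunctor (ModuleCat.{u} A) c).obj ω ≅ Y :=
    (DerivedCategory.homologyFunctor (ModuleCat.{u} A) c).mapIso e ≪≫
      (DerivedCategory.singleFunctorCompHomologyFunctorIso (ModuleCat.{u} A) c).app Y
  exact ⟨e ≪≫ (DerivedCategory.singleFunctor (ModuleCat.{u} A) c).mapIso e1.symm⟩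

/-- `M = H^c(ω)` placed in degree zero is the shift `ω⟦c⟧`. -/
theorem nonempty_inD_iso (ω : Dual.D A) (c : ℤ)
    (h : ∀ i : ℤ, i ≠ c → Subsingleton (Dual.HD A ω i)) :
    Nonempty (Dual.inD A (Dual.HD A ω c) ≅ ω⟦c⟧) := by
  obtain ⟨e⟩ := nonempty_iso_single ω c h
  exact ⟨((DerivedCategory.singleFunctors (ModuleCat.{u} A)).shiftIso c 0 c (by omega)).symm.app _ ≪≫
    (shiftFunctor (Dual.D A) c).mapIso e.symm⟩

theorem subsingleton_hom_shift (K L : Dual.D A) (c i : ℤ) (h : Subsingleton (K ⟶ L⟦i - c⟧)) :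
    Subsingleton (K⟦c⟧ ⟶ L⟦i⟧) := by
  refine ⟨fun f g => ?_⟩
  let a := (shiftFunctorAdd' (Dual.D A) (i - c) c i (by omega)).app L
  have h1 : f ≫ a.hom = g ≫ a.hom := by
    obtain ⟨f', hf'⟩ := (shiftFunctor (Dual.D A) c).map_surjective (f ≫ a.hom)
    obtain ⟨g', hg'⟩ := (shiftFunctor (Dual.D A) c).map_surjective (g ≫ a.hom)
    rw [← hf', ← hg', Subsingleton.elim f' g']
  exact (cancel_mono a.hom).1 h1

theorem subsingleton_E {ω : Dual.D A} (hω : Dual.IsDualizing A ω) (c : ℤ)
    (h : ∀ i : ℤ, i ≠ c → Subsingleton (Dual.HD A ω i)) (i : ℤ) (hi : i ≠ c) :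
    Subsingleton (E ω i (Dual.HD A ω c)) := by
  obtain ⟨e⟩ := nonempty_inD_iso ω c h
  have h1 := subsingleton_hom_shift ω ω c i (hω.ext_self_subsingleton (i - c) (by omega))
  refine ⟨fun f g => ?_⟩
  rw [← cancel_epi e.inv]
  exact Subsingleton.elim _ _

theorem annihilator_eq_bot {ω : Dual.D A} (hω : Dual.IsDualizing A ω) (c : ℤ)
    (h : ∀ i : ℤ, i ≠ c → Subsingleton (Dual.HD A ω i)) :
    Module.annihilator A (Dual.HD A ω c) = ⊥ := by
  rw [eq_bot_iff]
  intro s hs
  rw [Module.mem_annihilator] at hs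
  obtain ⟨e⟩ := nonempty_iso_single ω c h
  refine hω.toEnd_bijective.1 ?_
  change s • 𝟙 ω = (0 : A) • 𝟙 ω
  rw [zero_smul]
  have h1 : s • 𝟙 (ModuleCat.of A (Dual.HD A ω c)) = 0 := by
    ext x
    exact hs x
  have h2 : s • 𝟙 ((DerivedCategory.singleFunctor (ModuleCat.{u} A) c).obj
      (ModuleCat.of A (Dual.HD A ω c))) = 0 := by
    rw [← CategoryTheory.Functor.map_id, ← Functor.map_smul, h1, Functor.map_zero]
  have h3 : s • 𝟙 ω = e.hom ≫ (s • 𝟙 _) ≫ e.inv := by
    rw [Linear.smul_comp, Linear.comp_smul, Category.id_comp, e.hom_inv_id]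
  rw [h3, h2, zero_comp, comp_zero]

theorem mem_support {ω : Dual.D A} (hω : Dual.IsDualizing A ω) (c : ℤ)
    (h : ∀ i : ℤ, i ≠ c → Subsingleton (Dual.HD A ω i)) (p : PrimeSpectrum A) :
    p ∈ Module.support A (Dual.HD A ω c) := by
  have := hω.finite_cohomology c
  rw [Module.support_eq_zeroLocus, annihilator_eq_bot hω c h]
  simp

/-- The localizations of `H^c(ω)` are Cohen–Macaulay. -/
theorem isCohenMacaulayModule {ω : Dual.D A} (hω : Dual.IsDualizing A ω) (c : ℤ)
    (h : ∀ i : ℤ, i ≠ c → Subsingleton (Dual.HD A ω i)) (p : PrimeSpectrum A) :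
    LocCoh.IsCohenMacaulayModule (Localization.AtPrime p.asIdeal)
      (LocalizedModule p.asIdeal.primeCompl (Dual.HD A ω c)) := by
  have := hω.isNoetherianRing
  have := hω.finite_cohomology c
  obtain ⟨hfin, δ, hδ, hcov⟩ := Books.DualCM.exists_setup hω
  rw [Books.DualCM.isCohenMacaulayModule_iff ω hfin hδ hcov p _ (mem_support hω c h p)]
  have key : ∀ i : ℤ, p ∈ Module.support A (E ω i (Dual.HD A ω c)) → i = c := by
    intro i hi
    by_contra hne
    have := subsingleton_E hω c h i hne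
    rw [Module.support_eq_empty] at hi
    exact hi
  intro i j hi hj
  rw [key i hi, key j hj]

end Groth.Agent.Dual.H341.CMAlg
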