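import Groth.Agent.PerfA.TildeSupp
import Groth.Agent.Dcoh.StalkRes
import Groth.Agent.Ega4A.DepthBasic
import Mathlib.Algebra.Module.LocalizedModule.Basic
import Mathlib.RingTheory.Localization.Module
import Groth.Prelude.Def_Wider

/-!
# Stalks of the cohomology sheaves of a complex which is locally a derived tilde, semilinearly
over the isomorphism of local rings
-/

set_option autoImplicit false
universe u
open CategoryTheory CategoryTheory.Limits AlgebraicGeometry
attribute [local instance] HasDerivedCategory.standard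

namespace Groth.Agent.Dual.H341.StalkTr

open Groth.Agent.PerfA.Restrict Groth.Agent.PerfA.TildeSupp

section Tilde

variable (B : CommRingCat.{u}) (x : Spec B)

/-- The map from `B` to the stalk of `Spec B`. -/
noncomputable def tos : B →+* (Spec B).presheaf.stalk x :=
  (StructureSheaf.toStalk B x).hom

/-- The stalk of `Spec B` is a `B`-algebra. -/
@[reducible] noncomputable def algStalk :
    Algebra B ((Spec B).presheaf.stalk x) := (tos B x).toAlgebra

/-- The stalk of `M~` is a `B`-module. -/
@[reducible] noncomputable def modStalk (M : ModuleCat.{u} B) :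
    Module B ((tilde M).presheaf.stalk x) := Module.compHom _ (tos B x)

theorem isLocalization_stalk :
    letI := algStalk B x
    IsLocalization.AtPrime ((Spec B).presheaf.stalk x) (PrimeSpectrum.asIdeal x) :=
  StructureSheaf.IsLocalization.to_stalk B x

theorem exists_isLocalizedModule_stalk (M : ModuleCat.{u} B) :
    letI := modStalk B x M
    ∃ g : M →ₗ[B] ((tilde M).presheaf.stalk x),
      IsLocalizedModule (PrimeSpectrum.asIdeal x).primeCompl g :=
  ⟨(tilde.toStalk M x).hom,
    (inferInstance : IsLocalizedModule (PrimeSpectrum.asIdeal x).primeCompl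
      (tilde.toStalk M x).hom)⟩

/-- The stalk of `M~` at `x` is `M_x`, semilinearly over `B_x = O_{Spec B, x}`. -/
theorem exists_tilde_semilinear (M : ModuleCat.{u} B) :
    ∃ (σ : Localization.AtPrime (PrimeSpectrum.asIdeal x) ≃+* (Spec B).presheaf.stalk x)
      (ε : LocalizedModule (PrimeSpectrum.asIdeal x).primeCompl M ≃+ (tilde M).presheaf.stalk x),
      ∀ (r : Localization.AtPrime (PrimeSpectrum.asIdeal x))
        (m : LocalizedModule (PrimeSpectrum.asIdeal x).primeCompl M), ε (r • m) = σ r • ε m := by
  let _ := algStalk B x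
  let _ := modStalk B x M
  have : IsScalarTower B ((Spec B).presheaf.stalk x) ((tilde M).presheaf.stalk x) :=
    IsScalarTower.of_algebraMap_smul fun _ _ => rfl
  have := isLocalization_stalk B x
  obtain ⟨g, hg⟩ := exists_isLocalizedModule_stalk B x M
  let σ : Localization.AtPrime (PrimeSpectrum.asIdeal x) ≃ₐ[B] (Spec B).presheaf.stalk x :=
    IsLocalization.algEquiv (PrimeSpectrum.asIdeal x).primeCompl _ _
  let _ : Module (Localization.AtPrime (PrimeSpectrum.asIdeal x)) ((tilde M).presheaf.stalk x) :=
    Module.compHom _ (σ.toRingEquiv : Localization.AtPrime (PrimeSpectrum.asIdeal x) →+*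
      (Spec B).presheaf.stalk x)
  have : IsScalarTower B (Localization.AtPrime (PrimeSpectrum.asIdeal x))
      ((tilde M).presheaf.stalk x) := IsScalarTower.of_algebraMap_smul (fun r m => by
    change σ (algebraMap B _ r) • m = r • m
    rw [σ.commutes, algebraMap_smul])
  let e₀ : LocalizedModule (PrimeSpectrum.asIdeal x).primeCompl M ≃ₗ[B]
      ((tilde M).presheaf.stalk x) := IsLocalizedModule.iso _ g
  let e₁ := e₀.extendScalarsOfIsLocalization (PrimeSpectrum.asIdeal x).primeCompl
    (Localization.AtPrime (PrimeSpectrum.asIdeal x))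
  exact ⟨σ.toRingEquiv, e₁.toAddEquiv, fun r m => e₁.map_smul r m⟩

end Tilde

section Chart

variable {X : Scheme.{u}} {A : Type u} [CommRing A] (K : DCoh.D X)
  [PreservesFiniteLimits (tilde.functor (CommRingCat.of A))]
  (j : Spec (CommRingCat.of A) ⟶ X) [IsOpenImmersion j] (ω : Dual.D A)
  (e : (restrictD j).obj K ≅ (DCoh.tildeD (CommRingCat.of A)).obj ω) (i : ℤ)
  (p : PrimeSpectrum A)

include e

/-- The stalk of `H^i(K)` at `j p` is `H^i(ω)_p`, semilinearly over `O_{X, j p} = A_p`. -/
theorem exists_semilinear :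
    ∃ (σ : Localization.AtPrime p.asIdeal ≃+*
        X.presheaf.stalk (j (show Spec (CommRingCat.of A) from p)))
      (ε : LocalizedModule p.asIdeal.primeCompl (Dual.HD A ω i) ≃+
        (DCoh.HD K i).presheaf.stalk (j (show Spec (CommRingCat.of A) from p))),
      ∀ (r : Localization.AtPrime p.asIdeal)
        (m : LocalizedModule p.asIdeal.primeCompl (Dual.HD A ω i)), ε (r • m) = σ r • ε m := by
  let y : Spec (CommRingCat.of A) := p
  let N : ModuleCat.{u} (CommRingCat.of A) :=
    (DerivedCategory.homologyFunctor (ModuleCat.{u} A) i).obj ω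
  obtain ⟨σ, ε, hε⟩ := exists_tilde_semilinear (CommRingCat.of A) y N
  let e2 : (DCoh.HD K i).restrict j ≅ tilde (R := CommRingCat.of A) N :=
    (HDrestrict j K i).symm ≪≫ (DerivedCategory.homologyFunctor _ i).mapIso e ≪≫
      HDtilde (R := CommRingCat.of A) ω i
  let l := CycB.StalkExact.stalkLinEquiv e2 y
  let s := Dcoh.StalkRes.addIso j (DCoh.HD K i) y
  refine ⟨σ.trans (Dcoh.StalkRes.ringIso j y).symm, (ε.trans l.symm.toAddEquiv).trans s,
    fun r m => ?_⟩
  change s (l.symm (ε (r • m))) = (Dcoh.StalkRes.ringIso j y).symm (σ r) • s (l.symm (ε m))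
  rw [hε, map_smul, ← Dcoh.StalkRes.addIso_smul, RingEquiv.apply_symm_apply]

theorem isCohenMacaulayModule_stalk_iff :
    LocCoh.IsCohenMacaulayModule (X.presheaf.stalk (j (show Spec (CommRingCat.of A) from p)))
      ((DCoh.HD K i).presheaf.stalk (j (show Spec (CommRingCat.of A) from p))) ↔
    LocCoh.IsCohenMacaulayModule (Localization.AtPrime p.asIdeal)
      (LocalizedModule p.asIdeal.primeCompl (Dual.HD A ω i)) := by
  obtain ⟨σ, ε, hε⟩ := exists_semilinear K j ω e i p
  exact (Ega4A.DepthBasic.isCohenMacaulayModule_congr_of_surjective (σ : _ →+* _) σ.surjective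
    _ _ ε hε).symm

theorem nontrivial_stalk_iff :
    Nontrivial ((DCoh.HD K i).presheaf.stalk (j (show Spec (CommRingCat.of A) from p))) ↔
    Nontrivial (LocalizedModule p.asIdeal.primeCompl (Dual.HD A ω i)) := by
  obtain ⟨σ, ε, hε⟩ := exists_semilinear K j ω e i p
  exact ε.symm.toEquiv.nontrivial_congr

end Chart

end Groth.Agent.Dual.H341.StalkTr
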