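import Groth.Agent.Dual.H341.CMAlg
import Groth.Agent.Dual.H341.StalkTr
import Groth.Agent.S1809
import Groth.Agent.PerfA.CohDim
import Groth.Agent.PerfB.TildeExact
import Groth.Agent.VarietyB.DimTop

/-!
# Cohen–Macaulay schemes with a dualizing complex normalized at all closed points
-/

set_option autoImplicit false
universe u
open CategoryTheory CategoryTheory.Limits AlgebraicGeometry Topology TopologicalSpace
attribute [local instance] HasDerivedCategory.standard

namespace Groth.Agent.Dual.H341.CMSch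

open Groth.Agent.PerfA.CohDim Groth.Agent.PerfC.Supp Groth.Agent.PerfA.Restrict
open Groth.Agent.PerfA

variable {X : Scheme.{u}} {K : DCoh.D X}

/-- If all cohomology sheaves of the dualizing complex `K` except the one in degree `c` vanish, then
the stalks of `H^c(K)` are nonzero Cohen–Macaulay modules. -/
theorem stalk_of_concentrated (hK : Dual2.IsDualizingSch X K) (c : ℤ)
    (hc : ∀ i : ℤ, i ≠ c → IsZero (DCoh.HD K i)) (x : X) :
    Nontrivial ((DCoh.HD K c).presheaf.stalk x) ∧
      LocCoh.IsCohenMacaulayModule (X.presheaf.stalk x) ((DCoh.HD K c).presheaf.stalk x) := by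
  obtain ⟨R, j, hj, y, hy⟩ := Scheme.exists_Spec_apply_eq x
  change Spec (CommRingCat.of R) ⟶ X at j
  change PrimeSpectrum R at y
  obtain ⟨ω, hω, ⟨e⟩⟩ := hK R j
  have hsub : ∀ i : ℤ, i ≠ c → Subsingleton (Dual.HD R ω i) := by
    intro i hi
    rw [← Module.support_eq_empty_iff (R := R), Set.eq_empty_iff_forall_notMem]
    intro q hq
    have h1 := (mem_supp_iff K j ω e i q).2 hq
    have h2 : supp K i = ∅ := (supp_eq_empty_iff K i).2 (hc i hi)
    rw [h2] at h1
    exact h1
  subst hy
  constructor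
  · rw [StalkTr.nontrivial_stalk_iff K j ω e c y]
    exact CMAlg.mem_support hω c hsub y
  · exact (StalkTr.isCohenMacaulayModule_stalk_iff K j ω e c y).2
      (CMAlg.isCohenMacaulayModule hω c hsub y)

theorem topologicalKrullDim_le_of_components (T : Type*) [TopologicalSpace T] (d : ℕ)
    (hd : ∀ Z : Set T, Z ∈ irreducibleComponents T → topologicalKrullDim ↥Z = (d : WithBot ℕ∞)) :
    topologicalKrullDim T ≤ (d : WithBot ℕ∞) := by
  rw [VarietyB.DimTop.topologicalKrullDim_eq_iSup_irreducibleComponents]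
  exact iSup_le fun Z => (hd Z.1 Z.2).le

/-- On a Cohen–Macaulay scheme of pure dimension `d`, a dualizing complex normalized at all closed
points has full support in degree `-d`. -/
theorem mem_supp [IsLocallyNoetherian X] [CompactSpace X] (hK : Dual2.IsDualizingSch X K)
    (hH : Hyp K) (hCM : ∀ x : X, LocCoh.IsCohenMacaulayLocalRing (X.presheaf.stalk x)) (d : ℕ)
    (hd : ∀ Z : Set X, Z ∈ irreducibleComponents X → topologicalKrullDim ↥Z = (d : WithBot ℕ∞))
    (x : X) : x ∈ supp K (-(d : ℤ)) := by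
  have hle := topologicalKrullDim_le_of_components X d hd
  obtain ⟨h1, h2⟩ := hH.bounds d hle
  let Z := irreducibleComponent x
  have hZ : Z ∈ irreducibleComponents X := irreducibleComponent_mem_irreducibleComponents x
  have hZc : IsClosed Z := isClosed_irreducibleComponent
  have hZi : IsIrreducible Z := isIrreducible_irreducibleComponent
  let η := hZi.genericPoint
  have hη : closure {η} = Z := by
    rw [hZi.isGenericPoint_genericPoint_closure.def, hZc.closure_eq]
  obtain ⟨i, hi, -⟩ := ((Groth.Agent.S1809.result X K hK).1 η).1 (hCM η)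
  have hsupp : η ∈ supp K i := not_subsingleton_iff_nontrivial.2 hi
  have hZs : Z ⊆ supp K i := by
    rw [← hη]
    exact closure_minimal (Set.singleton_subset_iff.2 hsupp) (hH.isClosed_supp i)
  have hnz : ¬ IsZero (DCoh.HD K i) := by
    rw [← supp_eq_empty_iff, Set.eq_empty_iff_forall_notMem]
    exact fun h => h η hsupp
  have hi0 : -(d : ℤ) ≤ i ∧ i ≤ 0 := by
    by_contra hcon
    exact hnz (h1 i (by omega))
  obtain ⟨n, hn⟩ : ∃ n : ℕ, (n : ℤ) = -i := ⟨(-i).toNat, by omega⟩
  have h3 := h2 i n hn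
  have h4 : {x : X | Nontrivial ((DCoh.HD K i).presheaf.stalk x)} = supp K i := by
    ext x
    exact not_subsingleton_iff_nontrivial.symm
  rw [h4] at h3
  have h5 : topologicalKrullDim ↥Z ≤ topologicalKrullDim ↥(supp K i) :=
    (IsEmbedding.inclusion hZs).isInducing.topologicalKrullDim_le
  rw [hd Z hZ] at h5
  have h6 : ((d : ℕ) : WithBot ℕ∞) ≤ (n : WithBot ℕ∞) := h5.trans h3
  have h7 : d ≤ n := by exact_mod_cast h6
  have h8 : i = -(d : ℤ) := by omega
  rw [← h8]
  exact hZs mem_irreducibleComponent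

theorem isZero_HD [IsLocallyNoetherian X] [CompactSpace X] (hK : Dual2.IsDualizingSch X K)
    (hH : Hyp K) (hCM : ∀ x : X, LocCoh.IsCohenMacaulayLocalRing (X.presheaf.stalk x)) (d : ℕ)
    (hd : ∀ Z : Set X, Z ∈ irreducibleComponents X → topologicalKrullDim ↥Z = (d : WithBot ℕ∞))
    (i : ℤ) (hi : i ≠ -(d : ℤ)) : IsZero (DCoh.HD K i) := by
  rw [← supp_eq_empty_iff, Set.eq_empty_iff_forall_notMem]
  intro x hx
  obtain ⟨i₀, -, hu⟩ := ((Groth.Agent.S1809.result X K hK).1 x).1 (hCM x)
  have h1 := hu i (not_subsingleton_iff_nontrivial.1 hx)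
  have h2 := hu (-(d : ℤ)) (not_subsingleton_iff_nontrivial.1 (mem_supp hK hH hCM d hd x))
  exact hi (h1.trans h2.symm)

end Groth.Agent.Dual.H341.CMSch
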