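import Groth.Agent.S1810
import Groth.Agent.PerfA.CohDim
import Groth.Agent.PerfA.PointVan
import Groth.Agent.PerfA.FieldSch
import Groth.Agent.PerfB.TildeExact
import Groth.Prelude.Def_Dual3

/-!
# The dualizing complex of a proper scheme over a field

`a(O)` is a dualizing complex, normalized at all closed points (`PerfA.CohDim.Hyp`).
-/

set_option autoImplicit false
universe u
open CategoryTheory CategoryTheory.Limits AlgebraicGeometry
attribute [local instance] HasDerivedCategory.standard

namespace Groth.Agent.Dual.H341.HypField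

variable (k : Type u) [Field k] (X : Scheme.{u}) (f : X ⟶ Spec (CommRingCat.of k)) [IsProper f]
  [DCoh.HasRpush f] (hf : DCoh.RpushPreservesQCoh f)
  (a : DCoh.DQCoh (Spec (CommRingCat.of k)) ⥤ DCoh.DQCoh X) (adj : DCoh.RpushQ f hf ⊣ a)
  (O : DCoh.DQCoh (Spec (CommRingCat.of k)))
  (hO : Nonempty (O.obj ≅ DCoh.inD (Spec (CommRingCat.of k))
    (Coh.structureModule (Spec (CommRingCat.of k)))))

include adj hO

theorem isDualizingSch : Dual2.IsDualizingSch X (a.obj O).obj :=
  Groth.Agent.S1810.result X (Spec (CommRingCat.of k)) f hf a adj O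
    (Groth.Agent.PerfA.FieldSch.isDualizingSch_field k O.obj hO)

theorem hyp : Groth.Agent.PerfA.CohDim.Hyp (a.obj O).obj where
  exists_dual := fun A _ j _ => isDualizingSch k X f hf a adj O hO A j
  point := fun _ _ j _ ω e m _ y hy hc i hi =>
    Groth.Agent.PerfA.PointVan.subsingleton_quot k f hf a adj O hO j ω e m y hy hc i hi

end Groth.Agent.Dual.H341.HypField
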